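import Cfsg.Agent.H542.EPX.Cells
import Cfsg.Agent.H998.EPA.Six
import Cfsg.Agent.OrdDiv.Table
import Cfsg.Agent.S0252
import Cfsg.Agent.S0253
import Cfsg.Agent.S0254
import Cfsg.Agent.S1074

/-!
# S5745: the Tits group, the glue (helper224)

* `ept_of_ep`, `hasSoc_of_eps` : from `EPS` to `EPT` and `HasSoc`;
* `Rows` : the open rows (socle `L₃(3)`, `L₂(25)`, `U₃(4)`, `A₅`, `A₅²`);
* `noEP_tits_of` : `NoEP Lie.TitsGroup` from the rows, the affine cell and the cell with two minimal normal subgroups.
-/

set_option autoImplicit false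
set_option maxRecDepth 10000

namespace Cfsg.Agent.H224.EPX

open Cfsg Cfsg.Agent.H284 Cfsg.Agent.H209.EPX Cfsg.Agent.H542.EPX Cfsg.Agent.OrdDiv Cfsg.Agent.H419.EP

/-- The `T`-form for a simple group. -/
theorem ept_of_ep {G : Type*} [Group G] [Finite G] [IsSimpleGroup G] (hcomm : ¬ ∀ a b : G, a * b = b * a)
    {H : Subgroup G} (h : EP H) : EPT H (H.map (MulAut.conj : G →* MulAut G)) := by
  have hs : IsSimpleGroup (⊤ : Subgroup G) := (Subgroup.topEquiv (G := G)).isSimpleGroup
  have hcent : Subgroup.centralizer ((⊤ : Subgroup G) : Set G) = ⊥ := by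
    have h1 : Subgroup.centralizer ((⊤ : Subgroup G) : Set G) = Subgroup.center G := by
      rw [Subgroup.coe_top, Subgroup.centralizer_univ]
    rw [h1]
    rcases (inferInstance : (Subgroup.center G).Normal).eq_bot_or_eq_top with h2 | h2
    · exact h2
    · exfalso
      apply hcomm
      intro a b
      have : b ∈ Subgroup.center G := by rw [h2]; exact Subgroup.mem_top _
      exact (Subgroup.mem_center_iff.1 this a)
  have hsol : Group.IsSolvable (G ⧸ (⊤ : Subgroup G)) := by
    have : Subsingleton (G ⧸ (⊤ : Subgroup G)) := QuotientGroup.subsingleton_quotient_top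
    infer_instance
  have h1 := h.toEPT (T := ⊤) (Subgroup.topEquiv (G := G)) hs
    (fun h2 => hcomm fun a b => h2 a (Subgroup.mem_top _) b (Subgroup.mem_top _)) hcent hsol
  have e1 : TA (Subgroup.topEquiv (G := G)) H = H := by
    ext q
    rfl
  have e2 : toAut (Subgroup.topEquiv (G := G)) = (MulAut.conj : G →* MulAut G) := by
    ext g q
    have := toG_toAut (Subgroup.topEquiv (G := G)) g q
    exact this
  rw [e1, e2] at h1
  exact h1

/-- A stabiliser with simple socle. -/
theorem hasSoc_of_eps {G : Type*} [Group G] {H N : Subgroup G} {T : Type} [Group T] {e : N ≃* (Fin 1 → T)}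
    (h : EPS H N e) {L : Type*} [Group L] (f : Nonempty (T ≃* L)) : HasSoc H L := by
  obtain ⟨f⟩ := f
  refine ⟨N, h.le, h.nrm, ?_, ⟨(e.trans (MulEquiv.funUnique (Fin 1) T)).trans f⟩⟩
  intro a _ hc
  have h1 : a ∈ Subgroup.centralizer (N : Set G) := by
    rw [Subgroup.mem_centralizer_iff]
    exact fun n hn => (hc n hn).symm
  rw [h.cent] at h1
  exact Subgroup.mem_bot.1 h1

theorem card_tits : Nat.card Lie.TitsGroup = 17971200 := S1074.result.2.2.2.trans (by norm_num)

/-- The open rows of the Tits group. -/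
structure Rows (G : Type) [Group G] : Prop where
  /-- `L₃(3)` -/
  l33 : ∀ (F : Type) [Field F] [Fintype F], Fintype.card F = 3 → ∀ (H N : Subgroup G) (T : Type) [Group T]
    (e : N ≃* (Fin 1 → T)), EPS H N e → Nonempty (T ≃* Matrix.ProjectiveSpecialLinearGroup (Fin 3) F) → False
  /-- `L₂(25)` -/
  l25 : ∀ (F : Type) [Field F] [Fintype F], Fintype.card F = 25 → ∀ (H N : Subgroup G) (T : Type)
    [Group T] (e : N ≃* (Fin 1 → T)), EPS H N e → Nonempty (T ≃* Matrix.ProjectiveSpecialLinearGroup (Fin 2) F) →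
    False
  /-- `U₃(4)` -/
  u34 : ∀ (F : Type) [Field F] [Fintype F], Fintype.card F = 16 → ∀ (H N : Subgroup G) (T : Type)
    [Group T] (e : N ≃* (Fin 1 → T)), EPS H N e → Nonempty (T ≃* PSU 3 F 4) → False
  /-- `A₅` -/
  a5 : ∀ (H N : Subgroup G) (T : Type) [Group T] (e : N ≃* (Fin 1 → T)), EPS H N e →
    Nonempty (T ≃* alternatingGroup (Fin 5)) → False
  /-- `A₅ × A₅` -/
  a5k : ∀ (H N : Subgroup G) (T : Type) [Group T] (e : N ≃* (Fin 2 → T)), EPS H N e →
    Nonempty (T ≃* alternatingGroup (Fin 5)) → False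

theorem cands_tits : cands [(2, 11), (3, 3), (5, 2), (13, 1)] 17971200 =
    [.alt 5, .alt 6, .psl 2 4, .psl 3 3, .psl 2 9, .psl 2 5, .psl 2 25, .psu 3 4, .tits] := by decide +kernel

theorem card_fun {T : Type} (k : ℕ) : Nat.card (Fin k → T) = Nat.card T ^ k := by
  rw [Nat.card_fun, Nat.card_fin]

/-- the glue for a simple group of the order of the Tits group -/
theorem noEP_of_card (hK : ∀ (X : Type) [Group X] [Finite X], IsSimpleGroup X → IsKnownSimple' X)
    {G : Type} [Group G] [Finite G] [IsSimpleGroup G] (hG : Nat.card G = 17971200) (ha : Aff G) (ht : Two G)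
    (R : Rows G) : NoEP G := by
  intro H hH
  rcases trichotomy hH with ⟨X, hX⟩ | ⟨N, N', T, i, k, e, h⟩ | ⟨N, T, i, k, e, h⟩
  · exact ha H X hX
  · exact ht H N N' T k e h
  have hNT : Nat.card N = Nat.card T ^ k := (Nat.card_congr e.toEquiv).trans (card_fun k)
  have hk := h.pos
  have hTs : IsSimpleGroup T := h.simple
  have hNpos : 0 < Nat.card N := Nat.card_pos
  have hTf : Finite T := by
    apply Nat.finite_of_card_ne_zero
    intro h0
    rw [h0, Nat.zero_pow hk] at hNT
    omega
  have hdN : Nat.card T ^ k ∣ 17971200 := by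
    rw [← hNT, ← hG]
    exact Subgroup.card_subgroup_dvd_card N
  have hd : Nat.card T ∣ 17971200 := (dvd_pow_self _ hk.ne').trans hdN
  obtain ⟨x, y, hxy⟩ := h.nab
  obtain ⟨g, hg, hr, hcard⟩ := exists_good (table.{0}) (hK T hTs) (fun hc => hxy (hc x y))
    (l := [(2, 11), (3, 3), (5, 2), (13, 1)]) (N := 17971200) (by decide +kernel) hd
  rw [cands_tits] at hg
  -- `k = 1` unless the order is 60
  have hk1 : ∀ {n : ℕ}, Nat.card T = n → ¬ n ^ 2 ∣ 17971200 → k = 1 := by
    intro n hn h2
    by_contra hne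
    apply h2
    rw [← hn]
    exact (pow_dvd_pow _ (by omega)).trans hdN
  have hA5 : Nonempty (T ≃* alternatingGroup (Fin 5)) → False := by
    intro hf
    have hc : Nat.card T = 60 := by
      rw [Nat.card_congr hf.some.toEquiv, nat_card_alternatingGroup, Nat.card_fin]
      decide
    have hk2 : k = 1 ∨ k = 2 := by
      have h3 : ¬ 3 ≤ k := by
        intro h3
        have h4 : 60 ^ 3 ∣ 17971200 := by
          rw [← hc]
          exact (pow_dvd_pow _ h3).trans hdN
        revert h4
        decide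
      omega
    rcases hk2 with rfl | rfl
    · exact R.a5 H N T e h hf
    · exact R.a5k H N T e h hf
  have hA6 : Nonempty (T ≃* alternatingGroup (Fin 6)) → False := by
    intro hf
    have hc : Nat.card T = 360 := by
      rw [Nat.card_congr hf.some.toEquiv, nat_card_alternatingGroup, Nat.card_fin]
      decide
    have := hk1 hc (by decide)
    subst this
    have hcomm : ¬ ∀ a b : G, a * b = b * a := by
      intro hc
      apply hxy
      have h5 : (MulEquiv.funUnique (Fin 1) T).symm x * (MulEquiv.funUnique (Fin 1) T).symm y =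
          (MulEquiv.funUnique (Fin 1) T).symm y * (MulEquiv.funUnique (Fin 1) T).symm x := by
        apply e.symm.injective
        rw [map_mul, map_mul]
        exact Subtype.ext (hc _ _)
      apply (MulEquiv.funUnique (Fin 1) T).symm.injective
      rw [map_mul, map_mul]
      exact h5
    exact H998.EPA.a6_false (ept_of_ep hcomm hH) (hasSoc_of_eps h hf) (by rw [hG]; norm_num)
  simp only [List.mem_cons, List.not_mem_nil, or_false] at hg
  rcases hg with rfl | rfl | rfl | rfl | rfl | rfl | rfl | rfl | rfl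
  · exact hA5 hr
  · exact hA6 hr
  · obtain ⟨F, i1, i2, hF, hf⟩ := hr
    exact hA5 ⟨hf.some.trans (S0252.result hF).some⟩
  · obtain ⟨F, i1, i2, hF, hf⟩ := hr
    have := hk1 hcard (by decide +kernel)
    subst this
    exact R.l33 F hF H N T e h hf
  · obtain ⟨F, i1, i2, hF, hf⟩ := hr
    exact hA6 ⟨hf.some.trans (S0254.result hF).some⟩
  · obtain ⟨F, i1, i2, hF, hf⟩ := hr
    exact hA5 ⟨hf.some.trans (S0253.result hF).some⟩
  · obtain ⟨F, i1, i2, hF, hf⟩ := hr
    have := hk1 hcard (by decide +kernel)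
    subst this
    exact R.l25 F hF H N T e h hf
  · obtain ⟨F, i1, i2, hF, hf⟩ := hr
    have := hk1 hcard (by decide +kernel)
    subst this
    exact R.u34 F (by rw [hF]; norm_num) H N T e h hf
  · have := hk1 hcard (by decide +kernel)
    subst this
    rw [pow_one, hcard] at hNT
    apply hH.max.1
    rw [Subgroup.eq_top_iff']
    intro z
    have h7 : ordN .tits = 17971200 := by decide +kernel
    have h6 : N = ⊤ := Subgroup.eq_top_of_card_eq N (hNT.trans (h7.trans hG.symm))
    exact h.le (h6 ▸ Subgroup.mem_top z)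

/-- **The glue for the Tits group.** -/
theorem noEP_tits_of (hK : ∀ (X : Type) [Group X] [Finite X], IsSimpleGroup X → IsKnownSimple' X)
    [IsSimpleGroup Lie.TitsGroup] (ha : Aff Lie.TitsGroup) (ht : Two Lie.TitsGroup) (R : Rows Lie.TitsGroup) :
    NoEP Lie.TitsGroup := by
  have hfin : Finite Lie.TitsGroup := Nat.finite_of_card_ne_zero (by rw [card_tits]; norm_num)
  exact noEP_of_card hK card_tits ha ht R

end Cfsg.Agent.H224.EPX
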